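import Mathlib
import Cfsg.Agent.H46.J1
import Cfsg.Agent.H80.SchurPerfect

/-!
# The Schur multiplier of the first Janko group
-/

set_option autoImplicit false
set_option maxRecDepth 1000000

namespace Cfsg.Agent.H46.J1

open Cfsg.Agent.H42 Cfsg.Agent.H46 Subgroup Cfsg.Agent.H80
open scoped commutatorElement

noncomputable def c_e1 : ℕ := O.mul (O.mul gX c_t) c_iX

theorem chkSchur : O.eqB (O.mul gX c_iX) O.one = true ∧ O.conjB gX c_e1 c_x = true ∧
    O.conjB gX c_x c_s = true ∧ O.eqB (O.mul c_t c_e1) c_s = true ∧ O.commB c_t c_e1 = true ∧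
    O.commB c_t c_x = true := by decide +kernel

theorem commutator_mul_central {Γ : Type*} [Group Γ] {a b c : Γ} (h : ⁅a, c⁆ ∈ center Γ) :
    ⁅a, b * c⁆ = ⁅a, b⁆ * ⁅a, c⁆ := by
  have := mem_center_iff.mp h b
  calc ⁅a, b * c⁆ = ⁅a, b⁆ * (b * ⁅a, c⁆) * b⁻¹ := by simp only [commutatorElement_def]; group
    _ = _ := by rw [this]; group

theorem conj_commutator_central {Γ : Type*} [Group Γ] {a b : Γ} (r : Γ) (h : ⁅a, b⁆ ∈ center Γ) :
    ⁅r * a * r⁻¹, r * b * r⁻¹⁆ = ⁅a, b⁆ := by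
  have := mem_center_iff.mp h r
  calc ⁅r * a * r⁻¹, r * b * r⁻¹⁆ = r * ⁅a, b⁆ * r⁻¹ := by simp only [commutatorElement_def]; group
    _ = _ := by rw [this]; group

theorem comap_S_comm {Γ : Type*} [Group Γ] {σ : Γ →* G} (hσ : IsCentralExt σ) :
    ⁅S.comap σ, S.comap σ⁆ = ⊥ := by
  obtain ⟨h1, h2, h3, h4, h5, h6⟩ := chkSchur
  have RiX : C.R c_iX (C.el c_iX) := R_E _
  have Rs : C.R c_s (C.el c_s) := R_E _
  have e1 : C.el c_iX = eX⁻¹ :=
    eq_inv_of_mul_eq_one_right (C.eq_of_eqB (C.R_mul R_X RiX) C.R_one h1)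
  have Re1 : C.R c_e1 (eX * t * eX⁻¹) := e1 ▸ C.R_mul (C.R_mul R_X R_t) RiX
  have e2 := C.conj_of_conjB R_X Re1 R_x h2
  have e3 := C.conj_of_conjB R_X R_x Rs h3
  have e4 := C.eq_of_eqB (C.R_mul R_t Re1) Rs h4
  have e5 := (C.commB_iff R_t Re1).mp h5
  have e6 := (C.commB_iff R_t R_x).mp h6
  obtain ⟨r, hr⟩ := hσ.surj eX
  obtain ⟨a0, ha0⟩ := hσ.surj t
  set a1 := r * a0 * r⁻¹ with d1
  set a2 := r * a1 * r⁻¹ with d2
  set a3 := r * a2 * r⁻¹ with d3
  have s1 : σ a1 = eX * t * eX⁻¹ := by rw [d1, map_mul, map_mul, map_inv, hr, ha0]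
  have s2 : σ a2 = x := by rw [d2, map_mul, map_mul, map_inv, hr, s1, e2]
  have s3 : σ a3 = σ (a0 * a1) := by
    rw [d3, map_mul, map_mul, map_inv, hr, s2, e3, map_mul, ha0, s1, e4]
  have c01 : ⁅a0, a1⁆ ∈ center Γ := hσ.central (by
    rw [MonoidHom.mem_ker, map_commutatorElement, ha0, s1, commutatorElement_eq_one_iff_mul_comm, e5])
  have c02 : ⁅a0, a2⁆ ∈ center Γ := hσ.central (by
    rw [MonoidHom.mem_ker, map_commutatorElement, ha0, s2, commutatorElement_eq_one_iff_mul_comm, e6])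
  have c12 : ⁅a1, a2⁆ = ⁅a0, a1⁆ := conj_commutator_central r c01
  have c13 : ⁅a1, a3⁆ = ⁅a0, a2⁆ := conj_commutator_central r c02
  have c23 : ⁅a2, a3⁆ = ⁅a0, a1⁆ := (conj_commutator_central r (c12 ▸ c01)).trans c12
  rw [commutatorElement_eq_of_map_eq hσ.central rfl s3, commutator_mul_central (by simp),
    commutatorElement_self, mul_one, ← commutatorElement_inv] at c13
  rw [commutatorElement_eq_of_map_eq hσ.central rfl s3, commutator_mul_central
    (by rw [← commutatorElement_inv, c12]; exact inv_mem c01), ← commutatorElement_inv a0,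
    ← commutatorElement_inv a1, c12, ← c13, inv_inv, mul_inv_cancel] at c23
  have k01 : a0 * a1 = a1 * a0 := commutatorElement_eq_one_iff_mul_comm.mp c23.symm
  have k02 : a0 * a2 = a2 * a0 :=
    commutatorElement_eq_one_iff_mul_comm.mp (by rw [← c13, ← c23, inv_one])
  have k12 : a1 * a2 = a2 * a1 := commutatorElement_eq_one_iff_mul_comm.mp (by rw [c12, ← c23])
  have hc : IsMulCommutative (closure ({a0, a1, a2} : Set Γ)) := by
    apply Subgroup.isMulCommutative_closure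
    clear_value a3 a2 a1
    rintro p (rfl | rfl | rfl) q (rfl | rfl | rfl)
    exacts [rfl, k01, k02, k01.symm, rfl, k12, k02.symm, k12.symm, rfl]
  have hS : S ≤ (closure ({a0, a1, a2} : Set Γ)).map σ := by
    rw [S, C.gens_three (gen := genS) R_t R_x Rs, closure_le]
    have m0 : a0 ∈ closure ({a0, a1, a2} : Set Γ) := subset_closure (by simp)
    have m1 : a1 ∈ closure ({a0, a1, a2} : Set Γ) := subset_closure (by simp)
    have m2 : a2 ∈ closure ({a0, a1, a2} : Set Γ) := subset_closure (by simp)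
    rintro g (rfl | rfl | rfl)
    · exact ⟨a0, m0, ha0⟩
    · exact ⟨a2, m2, s2⟩
    · exact ⟨a0 * a1, mul_mem m0 m1, by rw [map_mul, ha0, s1, e4]⟩
  rw [eq_bot_iff, Subgroup.commutator_le]
  intro p hp q hq
  obtain ⟨p', hp', ep⟩ := hS hp
  obtain ⟨q', hq', eq⟩ := hS hq
  rw [mem_bot, commutatorElement_eq_of_map_eq hσ.central ep.symm eq.symm,
    commutatorElement_eq_one_iff_mul_comm]
  exact congrArg Subtype.val (hc.is_comm.comm (⟨p', hp'⟩ : closure ({a0, a1, a2} : Set Γ)) ⟨q', hq'⟩)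

theorem eq_one_of_pow_coprime {Γ : Type*} [Group Γ] {z : Γ} {p n : ℕ} (hp : p.Prime)
    (h1 : z ^ p = 1) (h2 : z ^ n = 1) (h3 : ¬ p ∣ n) : z = 1 := by
  rw [← orderOf_eq_one_iff]
  exact Nat.eq_one_of_dvd_coprimes ((Nat.Prime.coprime_iff_not_dvd hp).mpr h3)
    (orderOf_dvd_of_pow_eq_one h1) (orderOf_dvd_of_pow_eq_one h2)

/-- If `p ^ 2` does not divide the order, stem kernels have no `p`-torsion. -/
theorem stem_no_torsion {Q Γ : Type*} [Group Q] [Finite Q] [Group Γ] {σ : Γ →* Q}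
    (hσ : Cfsg.IsStemExtension σ) {p : ℕ} (hp : p.Prime) (hd : p ∣ Nat.card Q)
    (h2 : ¬ p ^ 2 ∣ Nat.card Q) {z : Γ} (hz : z ∈ σ.ker) (h : z ^ p = 1) : z = 1 := by
  have := Fact.mk hp
  obtain ⟨y, hy⟩ := exists_prime_orderOf_dvd_card' (G := Q) p hd
  refine eq_one_of_pow_coprime hp h (pow_index_eq_one_of_isCyclic (IsCentralExt.of_stem hσ)
    (zpowers y) ⟨hz, hσ.2.2 hz⟩) fun h3 => h2 ?_
  rw [← (zpowers y).card_mul_index, Nat.card_zpowers, hy, pow_two]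
  exact Nat.mul_dvd_mul_left _ h3

theorem schur : Cfsg.HasCyclicSchurMultiplier G 1 := by
  apply hasCyclicSchurMultiplier_one_of_primes
  intro p hp hd Γ _ _ σ hσ z hz h
  by_cases h2 : p = 2
  · subst h2
    have h1 := pow_index_mem_commutator_comap (IsCentralExt.of_stem hσ) S ⟨hz, hσ.2.2 hz⟩
    rw [comap_S_comm (IsCentralExt.of_stem hσ), mem_bot] at h1
    exact eq_one_of_pow_coprime hp h h1 sylow_S.2
  · refine stem_no_torsion hσ hp hd (fun h3 => ?_) hz h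
    rw [card_G] at h3
    have h4 : (p ^ 2).Coprime (2 ^ 3) :=
      Nat.Coprime.pow 2 3 ((Nat.coprime_primes hp Nat.prime_two).mpr h2)
    have h5 : p ^ 2 ∣ 21945 := h4.dvd_of_dvd_mul_left (by simpa using h3)
    have h6 : Squarefree 21945 := by
      rw [show 21945 = 3 * 5 * 7 * 11 * 19 by norm_num]
      simp only [Nat.squarefree_mul_iff]
      refine ⟨by norm_num, ⟨by norm_num, ⟨by norm_num, ⟨by norm_num, ?_, ?_⟩, ?_⟩, ?_⟩, ?_⟩ <;>
        exact (Nat.Prime.prime (by norm_num)).squarefree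
    exact hp.one_lt.ne' (Nat.isUnit_iff.mp (h6 p (pow_two p ▸ h5)))

theorem eqns_J1Schur : True := by
  first | (have := @Cfsg.Agent.H46.J1.c_e1.eq_def.{0,0,0}) | (have := @Cfsg.Agent.H46.J1.c_e1.eq_def.{0,0}) | (have := @Cfsg.Agent.H46.J1.c_e1.eq_def.{0}) | (have := @Cfsg.Agent.H46.J1.c_e1.eq_def) | skip
  first | (have := @Cfsg.Agent.H46.J1.c_e1.eq_1.{0,0,0}) | (have := @Cfsg.Agent.H46.J1.c_e1.eq_1.{0,0}) | (have := @Cfsg.Agent.H46.J1.c_e1.eq_1.{0}) | (have := @Cfsg.Agent.H46.J1.c_e1.eq_1) | skip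
  first | (have := @Cfsg.Agent.H46.J1.c_e1.eq_2.{0,0,0}) | (have := @Cfsg.Agent.H46.J1.c_e1.eq_2.{0,0}) | (have := @Cfsg.Agent.H46.J1.c_e1.eq_2.{0}) | (have := @Cfsg.Agent.H46.J1.c_e1.eq_2) | skip
  first | (have := @Cfsg.Agent.H46.J1.c_e1.eq_unfold.{0,0,0}) | (have := @Cfsg.Agent.H46.J1.c_e1.eq_unfold.{0,0}) | (have := @Cfsg.Agent.H46.J1.c_e1.eq_unfold.{0}) | (have := @Cfsg.Agent.H46.J1.c_e1.eq_unfold) | skip
  first | (have := @Cfsg.Agent.H46.J1.c_e1.congr_simp.{0,0,0}) | (have := @Cfsg.Agent.H46.J1.c_e1.congr_simp.{0,0}) | (have := @Cfsg.Agent.H46.J1.c_e1.congr_simp.{0}) | (have := @Cfsg.Agent.H46.J1.c_e1.congr_simp) | skip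
  trivial

end Cfsg.Agent.H46.J1
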